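import Cfsg.Agent.H678.CCData
import Cfsg.Agent.H678.SuzChar
import Cfsg.Agent.H504.ZerosIso
import Cfsg.Agent.S0145

/-!
# Exceptional characters of a CC-subgroup fixed by an automorphism (helper953, task 2532 of helper691, S4855)
-/

set_option autoImplicit false

namespace Cfsg.Agent.H953.InvT

open Cfsg Cfsg.Agent.H678.CCExact Cfsg.Agent.Characters.CCBasic Cfsg.Agent.Characters.CCEstimates
  Cfsg.Agent.Characters.CCValues
open scoped ComplexConjugate

universe u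

variable {G : Type u} [Group G] [Fintype G]

theorem sum_normSq [Fintype (IrrCharacter G)] (x : G) :
    ∑ ψ : IrrCharacter G, Complex.normSq ((ψ : G → ℂ) x) = Nat.card (Subgroup.centralizer ({x} : Set G)) := by
  classical
  have h := Cfsg.Agent.S0145.sum_irr_mul_conj (G := G) x x
  rw [if_pos (IsConj.refl x)] at h
  have h2 : (∑ ψ : IrrCharacter G, Complex.normSq ((ψ : G → ℂ) x) : ℝ) = ((Nat.card (Subgroup.centralizer ({x} : Set G)) : ℝ) : ℂ).re := by
    rw [Complex.ofReal_natCast, ← h, Complex.re_sum]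
    refine Finset.sum_congr rfl fun ψ _ => ?_
    rw [Complex.mul_conj, Complex.ofReal_re]
  rw [h2, Complex.ofReal_re]

theorem sum_cross [Fintype (IrrCharacter G)] {x y : G} (h : ¬ IsConj x y) :
    ∑ ψ : IrrCharacter G, ((ψ : G → ℂ) x * conj ((ψ : G → ℂ) y)).re = 0 := by
  classical
  have h1 := Cfsg.Agent.S0145.sum_irr_mul_conj (G := G) x y
  rw [if_neg h] at h1
  rw [← Complex.re_sum, h1, Complex.zero_re]

/-- **Characters invariant under `β` force `β x ~ x`.** -/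
theorem conj_of_inv [Fintype (IrrCharacter G)] {A : Subgroup G} (hA : IsCC A) {s e : ℕ} (D : CCData A s e)
    (hsq : ∑ ψ : IrrCharacter G, D.f ψ ^ 2 = e) (h2 : 2 * e < Nat.card A) (β : G ≃* G)
    (hinv : ∀ ψ ∈ D.R, (ψ : G → ℂ) ∘ β = ψ) {x : G} (hx : x ∈ A) (hx1 : x ≠ 1) : IsConj x (β x) := by
  classical
  by_contra hc
  have hxx := sum_normSq x
  have hyy := sum_normSq (β x)
  have hxy := sum_cross hc
  have hcx : Nat.card (Subgroup.centralizer ({x} : Set G)) = Nat.card A := by rw [hA.cent x hx hx1]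
  have hcy : Nat.card (Subgroup.centralizer ({β x} : Set G)) = Nat.card A := by
    rw [← hcx]
    refine (Nat.card_congr ((Subgroup.centralizer ({x} : Set G)).equivMapOfInjective β.toMonoidHom β.injective).toEquiv).symm ▸ ?_
    congr 1
    have : Subgroup.centralizer ({β x} : Set G) = (Subgroup.centralizer ({x} : Set G)).map β.toMonoidHom := by
      ext y
      obtain ⟨z, rfl⟩ := β.surjective y
      rw [Subgroup.mem_centralizer_singleton_iff]
      constructor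
      · intro h
        refine ⟨z, ?_, rfl⟩
        rw [SetLike.mem_coe, Subgroup.mem_centralizer_singleton_iff]
        apply β.injective
        rw [map_mul, map_mul, h]
      · rintro ⟨w, hw, hwz⟩
        have : w = z := β.injective hwz
        subst this
        rw [SetLike.mem_coe, Subgroup.mem_centralizer_singleton_iff] at hw
        rw [← map_mul, ← map_mul, hw]
    rw [this]
  rw [hcx] at hxx
  rw [hcy] at hyy
  -- the total
  have htot : ∑ ψ : IrrCharacter G, Complex.normSq ((ψ : G → ℂ) x + (ψ : G → ℂ) (β x)) = 2 * Nat.card A := by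
    have h3 : ∀ ψ : IrrCharacter G, Complex.normSq ((ψ : G → ℂ) x + (ψ : G → ℂ) (β x)) =
        Complex.normSq ((ψ : G → ℂ) x) + Complex.normSq ((ψ : G → ℂ) (β x)) +
          2 * ((ψ : G → ℂ) x * conj ((ψ : G → ℂ) (β x))).re := fun ψ => Complex.normSq_add _ _
    rw [Finset.sum_congr rfl fun ψ _ => h3 ψ, Finset.sum_add_distrib, Finset.sum_add_distrib, ← Finset.mul_sum,
      hxx, hyy, hxy]
    ring
  -- the exceptional part
  have hR : ∀ ψ ∈ D.R, (ψ : G → ℂ) (β x) = (ψ : G → ℂ) x := fun ψ hψ => congrFun (hinv ψ hψ) x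
  have hsR : ∑ ψ ∈ D.R, Complex.normSq ((ψ : G → ℂ) x) = Nat.card A - e := by
    have h4 : ∑ ψ : IrrCharacter G, Complex.normSq ((ψ : G → ℂ) x) =
        ∑ ψ ∈ D.R, Complex.normSq ((ψ : G → ℂ) x) + ∑ ψ ∈ D.Rᶜ, Complex.normSq ((ψ : G → ℂ) x) :=
      (Finset.sum_add_sum_compl _ _).symm
    have h5 : ∑ ψ ∈ D.Rᶜ, Complex.normSq ((ψ : G → ℂ) x) = e := by
      have h6 : ∑ ψ ∈ D.Rᶜ, D.f ψ ^ 2 = (e : ℤ) := by
        have h10 : ∑ ψ ∈ D.R, D.f ψ ^ 2 = 0 := Finset.sum_eq_zero (fun ψ hψ => by rw [D.hf0 ψ hψ]; ring)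
        rw [← hsq, ← Finset.sum_add_sum_compl D.R, h10, zero_add]
      have h7 : ((∑ ψ ∈ D.Rᶜ, D.f ψ ^ 2 : ℤ) : ℝ) = e := by rw [h6]; norm_cast
      rw [← h7]
      push_cast
      refine Finset.sum_congr rfl fun ψ hψ => ?_
      rw [D.hf ψ (Finset.mem_compl.1 hψ) x hx hx1, Complex.normSq_intCast, sq]
    rw [h5, hxx] at h4
    linarith
  have hle : ∑ ψ ∈ D.R, Complex.normSq ((ψ : G → ℂ) x + (ψ : G → ℂ) (β x)) ≤ 2 * Nat.card A := by
    rw [← htot]
    exact Finset.sum_le_sum_of_subset_of_nonneg (Finset.subset_univ _) fun ψ _ _ => Complex.normSq_nonneg _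
  have h8 : ∑ ψ ∈ D.R, Complex.normSq ((ψ : G → ℂ) x + (ψ : G → ℂ) (β x)) = 4 * (Nat.card A - e) := by
    rw [← hsR, Finset.mul_sum]
    refine Finset.sum_congr rfl fun ψ hψ => ?_
    rw [hR ψ hψ, ← two_mul, Complex.normSq_mul]
    norm_num
  rw [h8] at hle
  have h9 : (2 * e : ℝ) < Nat.card A := by exact_mod_cast h2
  linarith


open Cfsg.Agent.H678.SuzChar (const)

/-- the error term is `0` or `ε` -/
theorem c_cases [Fintype (IrrCharacter G)] {A : Subgroup G} {s e : ℕ} (D : CCData A s e) (hs : 2 ≤ s) (he : e ≤ 3)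
    (h1 : 1 ≤ ∑ ψ : IrrCharacter G, D.f ψ ^ 2) :
    D.c = 0 ∨ D.c = D.ε := by
  have h4 := D.sq
  have hs' : (2 : ℤ) ≤ s := by exact_mod_cast hs
  have he' : (e : ℤ) ≤ 3 := by exact_mod_cast he
  obtain ⟨x, hx⟩ : ∃ x, x = D.ε * D.c := ⟨_, rfl⟩
  have hx2 : D.c ^ 2 = x ^ 2 := by
    rw [hx]
    rcases D.hε with h | h <;> rw [h] <;> ring
  have h5 : (2 : ℤ) * D.ε * D.c = 2 * x := by rw [hx]; ring
  rw [hx2, h5] at h4
  have h6 : (s : ℤ) * x ^ 2 ≤ 2 + 2 * x := by linarith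
  have h7 : 2 * x ^ 2 ≤ 2 + 2 * x := le_trans (mul_le_mul_of_nonneg_right hs' (sq_nonneg x)) h6
  have h8 : x ≤ 1 := by nlinarith
  have h9 : 0 ≤ x := by nlinarith
  have h10 : x = 0 ∨ x = 1 := by omega
  rcases D.hε with h | h
  · rw [h] at hx
    rcases h10 with h11 | h11
    · left; linarith
    · right; rw [h]; linarith
  · rw [h] at hx
    rcases h10 with h11 | h11
    · left; linarith
    · right; rw [h]; linarith

/-- **Nonexceptional characters from degrees.** `T` contains the principal character and characters of degree congruent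
to `±1`, `e = |T|`. -/
theorem data_of [Fintype (IrrCharacter G)] {A : Subgroup G} {s e : ℕ} (D : CCData A s e) (hs : 2 ≤ s) (he2 : 2 ≤ e)
    (he : e ≤ 3) (ha : e + 3 ≤ Nat.card A) (hA : A ≠ ⊥) (T : Finset (IrrCharacter G)) (w : IrrCharacter G → ℤ)
    (hw : ∀ ψ ∈ T, w ψ = 1 ∨ w ψ = -1) (hwd : ∀ ψ ∈ T, (Nat.card A : ℤ) ∣ charDegree (ψ : G → ℂ) - w ψ)
    (hT : T.card = e) :
    ∑ ψ : IrrCharacter G, D.f ψ ^ 2 = e ∧ ∑ ψ ∈ T, (charDegree (ψ : G → ℂ) : ℤ) * w ψ = D.d ∨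
    ∑ ψ : IrrCharacter G, D.f ψ ^ 2 = e ∧ ∑ ψ ∈ T, (charDegree (ψ : G → ℂ) : ℤ) * w ψ = -D.d := by
  classical
  obtain ⟨o2, p2⟩ := const D hA (ψ := one G) (z := 1) (fun a _ _ => by rw [coe_one]; simp)
  have ha6 : (e : ℤ) + 3 ≤ Nat.card A := by exact_mod_cast ha
  have hc := c_cases D hs he (by
    have h3 := Finset.single_le_sum (f := fun ψ => D.f ψ ^ 2) (fun ψ _ => sq_nonneg _) (Finset.mem_univ (one G))
    simp only [p2] at h3
    linarith)
  have hsq := D.sq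
  have hs' : (2 : ℤ) ≤ s := by exact_mod_cast hs
  have he' : (e : ℤ) ≤ 3 := by exact_mod_cast he
  have he2' : (2 : ℤ) ≤ e := by exact_mod_cast he2
  have hle : ∑ ψ : IrrCharacter G, D.f ψ ^ 2 ≤ e := by
    rcases hc with h | h
    · rw [h] at hsq
      linarith
    · rw [h] at hsq
      have h5 : D.ε ^ 2 = 1 := by rcases D.hε with h | h <;> rw [h] <;> norm_num
      have h6 : (2 : ℤ) * D.ε * D.ε = 2 := by linear_combination 2 * h5
      rw [h5, h6] at hsq
      linarith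
  have hnot : ∀ ψ ∈ T, ψ ∉ D.R := by
    intro ψ hψ hR
    have h3 := D.ddvd
    rw [← D.deg ψ hR] at h3
    have h4 := dvd_sub (hwd ψ hψ) h3
    have h5 : (charDegree (ψ : G → ℂ) : ℤ) - w ψ - (charDegree (ψ : G → ℂ) - (D.ε * e + D.c)) =
      D.ε * e + D.c - w ψ := by ring
    rw [h5] at h4
    have h6 : D.ε * e + D.c - w ψ ≠ 0 ∧ |D.ε * e + D.c - w ψ| < Nat.card A := by
      rw [abs_lt]
      rcases D.hε with hε | hε <;> rw [hε] at hc ⊢ <;> rcases hc with hc | hc <;> rw [hc] <;>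
        rcases hw ψ hψ with hw' | hw' <;> rw [hw'] <;> refine ⟨?_, ?_, ?_⟩ <;> omega
    exact h6.1 (Int.eq_zero_of_abs_lt_dvd h4 h6.2)
  have hf : ∀ ψ ∈ T, D.f ψ = w ψ := by
    intro ψ hψ
    have h3 := dvd_sub (hwd ψ hψ) (D.dvd ψ (hnot ψ hψ))
    have h5 : (charDegree (ψ : G → ℂ) : ℤ) - w ψ - (charDegree (ψ : G → ℂ) - D.f ψ) = D.f ψ - w ψ := by ring
    rw [h5] at h3
    have h4 := Finset.single_le_sum (f := fun ψ => D.f ψ ^ 2) (fun ψ _ => sq_nonneg _) (Finset.mem_univ ψ)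
    have h6 : D.f ψ ^ 2 ≤ e := le_trans h4 hle
    have h7 : D.f ψ ≤ 2 := by nlinarith
    have h8 : -2 ≤ D.f ψ := by nlinarith
    have h9 : D.f ψ - w ψ = 0 := by
      apply Int.eq_zero_of_abs_lt_dvd h3
      rw [abs_lt]
      rcases hw ψ hψ with hw' | hw' <;> rw [hw'] <;> constructor <;> omega
    omega
  have hTs : ∑ ψ ∈ T, D.f ψ ^ 2 = e := by
    rw [Finset.sum_congr rfl (g := fun _ => (1 : ℤ))]
    · simp [hT]
    · intro ψ hψ
      rw [hf ψ hψ]
      rcases hw ψ hψ with h | h <;> rw [h] <;> norm_num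
  have hsplit := Finset.sum_add_sum_compl T (fun ψ => D.f ψ ^ 2)
  have hge : 0 ≤ ∑ ψ ∈ Tᶜ, D.f ψ ^ 2 := Finset.sum_nonneg fun ψ _ => sq_nonneg _
  have heq : ∑ ψ : IrrCharacter G, D.f ψ ^ 2 = e := by
    have h3 : (e : ℤ) ≤ ∑ ψ : IrrCharacter G, D.f ψ ^ 2 := by
      rw [← hsplit, hTs]
      linarith
    linarith
  have hzero : ∑ ψ ∈ Tᶜ, D.f ψ ^ 2 = 0 := by
    have h3 := hsplit
    rw [hTs] at h3
    linarith
  have hz : ∀ ψ ∈ Tᶜ, D.f ψ = 0 := by
    intro ψ hψ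
    have h3 := (Finset.sum_eq_zero_iff_of_nonneg (fun ψ _ => sq_nonneg (D.f ψ))).1 hzero ψ hψ
    exact pow_eq_zero_iff (two_ne_zero) |>.1 h3
  have hsd := D.sd
  have hTd : ∑ ψ : IrrCharacter G, (charDegree (ψ : G → ℂ) : ℤ) * D.f ψ = ∑ ψ ∈ T, (charDegree (ψ : G → ℂ) : ℤ) * w ψ := by
    rw [← Finset.sum_add_sum_compl T, Finset.sum_eq_zero (s := Tᶜ) (fun ψ hψ => by rw [hz ψ hψ, mul_zero]), add_zero]
    exact Finset.sum_congr rfl fun ψ hψ => by rw [hf ψ hψ]
  rw [hTd] at hsd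
  rcases hc with h | h
  · rw [h] at hsd
    rcases D.hε with hε | hε <;> rw [hε] at hsd
    · left; exact ⟨heq, by linarith⟩
    · right; exact ⟨heq, by linarith⟩
  · rw [h] at hsq hsd
    have h5 : D.ε ^ 2 = 1 := by rcases D.hε with h | h <;> rw [h] <;> norm_num
    have h6 : (2 : ℤ) * D.ε * D.ε = 2 := by linear_combination 2 * h5
    rw [h5, h6, heq] at hsq
    have hs2 : (s : ℤ) = 2 := by linarith
    rw [hs2] at hsd
    rcases D.hε with hε | hε <;> rw [hε] at hsd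
    · right; exact ⟨heq, by linarith⟩
    · left; exact ⟨heq, by linarith⟩

end Cfsg.Agent.H953.InvT
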