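import Mathlib

/-!
# Automorphisms of `PSL₃(F)` and elements of the Singer torus (helper953, task 2532 of helper691, S4855): arithmetic
-/

set_option autoImplicit false

namespace Cfsg.Agent.H953.InvT

open Module Matrix

/-- ring endomorphisms of a finite field -/
theorem frob {E : Type*} [Field E] [Finite E] {p m : ℕ} [hp : Fact p.Prime] [CharP E p] (hE : Nat.card E = p ^ m)
    (τ : E →+* E) : ∃ j < m, ∀ x, τ x = x ^ p ^ j := by
  let _ : Algebra (ZMod p) E := ZMod.algebra E p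
  have hfin : finrank (ZMod p) E = m := by
    have h := Module.natCard_eq_pow_finrank (K := ZMod p) (V := E)
    rw [hE, Nat.card_zmod] at h
    exact (Nat.pow_right_injective hp.out.two_le h).symm
  let τ' : E →ₐ[ZMod p] E := { τ with
    commutes' := fun r => by
      have : (τ.comp (algebraMap (ZMod p) E)) = algebraMap (ZMod p) E := Subsingleton.elim _ _
      exact RingHom.congr_fun this r }
  have hb : Function.Bijective τ' := Finite.injective_iff_bijective.1 τ.injective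
  obtain ⟨n, hn⟩ := (FiniteField.bijective_frobeniusAlgEquivOfAlgebraic_pow (ZMod p) E).2 (AlgEquiv.ofBijective τ' hb)
  refine ⟨n.1, ?_, fun x => ?_⟩
  · have := n.2
    omega
  · have h1 := AlgEquiv.congr_fun hn x
    have h2 : ∀ k : ℕ, (FiniteField.frobeniusAlgEquivOfAlgebraic (ZMod p) E ^ k) x = x ^ p ^ k := by
      intro k
      induction k with
      | zero => simp
      | succ k ih =>
        rw [pow_succ', AlgEquiv.mul_apply, ih, FiniteField.coe_frobeniusAlgEquivOfAlgebraic, ZMod.card]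
        ring
    have h3 : τ x = (FiniteField.frobeniusAlgEquivOfAlgebraic (ZMod p) E ^ (n : ℕ)) x := h1.symm
    rw [h3, h2]

variable {ι : Type} [Fintype ι] [DecidableEq ι] {F : Type*} [Field F] {E : Type*} [Field E] [Algebra F E]

/-- a semilinear embedding which respects the image of `E` -/
theorem exists_tau [Nonempty ι] (φ : E →ₐ[F] Matrix ι ι F) (σ : F ≃+* F) (θ : E →+* Matrix ι ι F)
    (hθ : ∀ c : F, θ (algebraMap F E c) = φ (algebraMap F E (σ c))) {ω₀ ω₁ : E}
    (h0 : Algebra.adjoin F {ω₀} = ⊤) (h1 : θ ω₀ = φ ω₁) :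
    ∃ τ : E →+* E, (∀ a, θ a = φ (τ a)) ∧ τ ω₀ = ω₁ ∧ ∀ c : F, τ (algebraMap F E c) = algebraMap F E (σ c) := by
  have hφ : Function.Injective φ := φ.toRingHom.injective
  have hr : ∀ a : E, ∃ b : E, θ a = φ b := by
    intro a
    have ha : a ∈ Algebra.adjoin F {ω₀} := by rw [h0]; trivial
    induction ha using Algebra.adjoin_induction with
    | mem x hx =>
      rw [Set.mem_singleton_iff] at hx
      exact ⟨ω₁, by rw [hx, h1]⟩
    | algebraMap r => exact ⟨_, hθ r⟩
    | add x y _ _ hx hy =>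
      obtain ⟨b, hb⟩ := hx
      obtain ⟨c, hc⟩ := hy
      exact ⟨b + c, by rw [map_add, map_add, hb, hc]⟩
    | mul x y _ _ hx hy =>
      obtain ⟨b, hb⟩ := hx
      obtain ⟨c, hc⟩ := hy
      exact ⟨b * c, by rw [map_mul, map_mul, hb, hc]⟩
  choose t ht using hr
  let τ : E →+* E :=
    { toFun := t
      map_one' := hφ (by rw [← ht, map_one, map_one])
      map_mul' := fun a b => hφ (by rw [← ht, map_mul, map_mul, ht, ht])
      map_zero' := hφ (by rw [← ht, map_zero, map_zero])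
      map_add' := fun a b => hφ (by rw [← ht, map_add, map_add, ht, ht]) }
  refine ⟨τ, ht, hφ ?_, fun c => hφ ?_⟩
  · exact (ht ω₀).symm.trans h1
  · exact (ht _).symm.trans (hθ c)

/-- an element outside `F` generates an extension of prime degree -/
theorem adjoin_top [FiniteDimensional F E] (hp : (finrank F E).Prime) {ω : E} (h : ∀ c : F, ω ≠ algebraMap F E c) :
    Algebra.adjoin F {ω} = ⊤ := by
  have hs : IntermediateField.adjoin F {ω} = ⊤ := by
    have h1 : finrank F (IntermediateField.adjoin F {ω}) ∣ finrank F E := by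
      rw [← Module.finrank_mul_finrank F (IntermediateField.adjoin F {ω}) E]
      exact dvd_mul_right _ _
    rcases (Nat.dvd_prime hp).1 h1 with h2 | h2
    · exfalso
      have h3 := IntermediateField.finrank_eq_one_iff.1 h2
      have h4 : ω ∈ IntermediateField.adjoin F {ω} := IntermediateField.mem_adjoin_simple_self F ω
      rw [h3, IntermediateField.mem_bot] at h4
      obtain ⟨c, hc⟩ := h4
      exact h c hc.symm
    · exact IntermediateField.eq_of_le_of_finrank_eq le_top (by rw [h2, IntermediateField.finrank_top'])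
  have h5 := IntermediateField.adjoin_simple_toSubalgebra_of_isAlgebraic (Algebra.IsAlgebraic.isAlgebraic (R := F) ω)
  rw [← h5, hs, IntermediateField.top_toSubalgebra]

theorem decomp {p f j : ℕ} (hp : 2 ≤ p) (hj : j < 3 * f) : ∃ s i : ℕ, s < 3 ∧ i < f ∧ j = f * s + i ∧
    p ^ j = (p ^ f) ^ s * p ^ i ∧ 2 * p ^ i ≤ p ^ f ∧ 1 ≤ p ^ i := by
  have hf : 0 < f := by omega
  refine ⟨j / f, j % f, ?_, Nat.mod_lt _ hf, (Nat.div_add_mod j f).symm, ?_, ?_, Nat.one_le_pow _ _ (by omega)⟩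
  · exact Nat.div_lt_of_lt_mul (by rw [mul_comm]; exact hj)
  · rw [← pow_mul, ← pow_add, Nat.div_add_mod]
  · have h1 : j % f + 1 ≤ f := Nat.mod_lt _ hf
    calc 2 * p ^ (j % f) ≤ p * p ^ (j % f) := Nat.mul_le_mul_right _ hp
      _ = p ^ (j % f + 1) := by rw [pow_succ, mul_comm]
      _ ≤ p ^ f := Nat.pow_le_pow_right (by omega) h1

theorem not_dvd_of_lt {n a : ℤ} (h0 : 0 < a) (h1 : a < n) : ¬ n ∣ a := fun h => by
  have := Int.le_of_dvd h0 h
  omega

theorem arith_plus {p f j : ℕ} (hp : 2 ≤ p) (hq : 3 ≤ p ^ f) (hj : j < 3 * f)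
    (h : (((p ^ f : ℕ) : ℤ) ^ 2 + (p ^ f : ℕ) + 1) ∣ 3 * ((p : ℤ) ^ j - 1)) : j = 0 ∨ (p ^ f = 4 ∧ j = 3) := by
  obtain ⟨s, i, hs, hi, hji, hpj, hu, hu1⟩ := decomp hp hj
  have hpj' : (p : ℤ) ^ j = ((p ^ f : ℕ) : ℤ) ^ s * ((p ^ i : ℕ) : ℤ) := by exact_mod_cast hpj
  rw [hpj'] at h
  have hqz : (3 : ℤ) ≤ ((p ^ f : ℕ) : ℤ) := by exact_mod_cast hq
  have huz : 2 * ((p ^ i : ℕ) : ℤ) ≤ ((p ^ f : ℕ) : ℤ) := by exact_mod_cast hu
  have hu1z : 1 ≤ ((p ^ i : ℕ) : ℤ) := by exact_mod_cast hu1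
  have hi0 : ((p ^ i : ℕ) : ℤ) = 1 → i = 0 := by
    intro h1
    have h2 : p ^ i = 1 := by exact_mod_cast h1
    by_contra h3
    have := Nat.one_lt_pow h3 (show 1 < p by omega)
    omega
  generalize hQ : ((p ^ f : ℕ) : ℤ) = q at *
  generalize hU : ((p ^ i : ℕ) : ℤ) = u at *
  interval_cases s
  · rw [pow_zero, one_mul] at h
    left
    by_cases h1 : u = 1
    · have := hi0 h1
      subst this
      omega
    · exact absurd h (not_dvd_of_lt (by omega) (by nlinarith))
  · right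
    have h1 : (q ^ 2 + q + 1) ∣ 3 * (q + 1 + u) := by
      have h2 : 3 * (q + 1 + u) = q ^ 2 * (3 * (q ^ 1 * u - 1)) + (q ^ 2 + q + 1) * (3 - 3 * (q - 1) * u) := by ring
      rw [h2]
      exact dvd_add (Dvd.dvd.mul_left h _) (dvd_mul_right _ _)
    have h2 := Int.le_of_dvd (by linarith) h1
    have h3 : q ≤ 4 := by
      by_contra hc
      have : 5 ≤ q := by omega
      nlinarith
    have h4 : q = 3 ∨ q = 4 := by omega
    rcases h4 with h4 | h4
    · exfalso
      subst h4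
      have : u = 1 := by omega
      subst this
      norm_num at h1
    · subst h4
      have h5 : u = 1 ∨ u = 2 := by omega
      rcases h5 with h5 | h5
      · subst h5
        norm_num at h1
      · have h6 : p ^ f = 4 := by exact_mod_cast hQ
        have h7 : p ^ i = 2 := by rw [h5] at hU; exact_mod_cast hU
        have hpp : p = 2 := by
          have h8 : i ≠ 0 := by
            rintro rfl
            simp at h7
          have h9 : p ∣ 2 := by
            rw [← h7]
            exact dvd_pow_self p h8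
          have := Nat.le_of_dvd (by norm_num) h9
          omega
        subst hpp
        have hf2 : f = 2 := Nat.pow_right_injective (le_refl 2) (by simpa using h6)
        have hi1 : i = 1 := Nat.pow_right_injective (le_refl 2) (by simpa using h7)
        refine ⟨h6, ?_⟩
        omega
  · exfalso
    have h1 : (q ^ 2 + q + 1) ∣ 3 * (q - u) := by
      have h2 : 3 * (q - u) = (q ^ 2 + q + 1) * (3 * (q - 1) * u) - q * (3 * (q ^ 2 * u - 1)) := by ring
      rw [h2]
      exact dvd_sub (dvd_mul_right _ _) (Dvd.dvd.mul_left h _)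
    exact not_dvd_of_lt (by linarith) (by nlinarith) h1

theorem arith_minus {p f j : ℕ} (hp : 2 ≤ p) (hq : 3 ≤ p ^ f) (hj : j < 3 * f) :
    ¬ (((p ^ f : ℕ) : ℤ) ^ 2 + (p ^ f : ℕ) + 1) ∣ 3 * ((p : ℤ) ^ j + 1) := by
  intro h
  obtain ⟨s, i, hs, hi, hji, hpj, hu, hu1⟩ := decomp hp hj
  have hpj' : (p : ℤ) ^ j = ((p ^ f : ℕ) : ℤ) ^ s * ((p ^ i : ℕ) : ℤ) := by exact_mod_cast hpj
  rw [hpj'] at h
  have hqz : (3 : ℤ) ≤ ((p ^ f : ℕ) : ℤ) := by exact_mod_cast hq
  have huz : 2 * ((p ^ i : ℕ) : ℤ) ≤ ((p ^ f : ℕ) : ℤ) := by exact_mod_cast hu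
  have hu1z : 1 ≤ ((p ^ i : ℕ) : ℤ) := by exact_mod_cast hu1
  generalize ((p ^ f : ℕ) : ℤ) = q at *
  generalize ((p ^ i : ℕ) : ℤ) = u at *
  interval_cases s
  · rw [pow_zero, one_mul] at h
    exact not_dvd_of_lt (by linarith) (by nlinarith) h
  · have h1 : (q ^ 2 + q + 1) ∣ 3 * (q + 1 - u) := by
      have h2 : 3 * (q + 1 - u) = (q ^ 2 + q + 1) * (3 + 3 * (q - 1) * u) - q ^ 2 * (3 * (q ^ 1 * u + 1)) := by ring
      rw [h2]
      exact dvd_sub (dvd_mul_right _ _) (Dvd.dvd.mul_left h _)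
    exact not_dvd_of_lt (by linarith) (by nlinarith) h1
  · have h1 : (q ^ 2 + q + 1) ∣ 3 * (u + q) := by
      have h2 : 3 * (u + q) = q * (3 * (q ^ 2 * u + 1)) - (q ^ 2 + q + 1) * (3 * (q - 1) * u) := by ring
      rw [h2]
      exact dvd_sub (Dvd.dvd.mul_left h _) (dvd_mul_right _ _)
    rcases eq_or_lt_of_le hqz with h3 | h3
    · have h4 : u = 1 := by omega
      rw [← h3, h4] at h1
      norm_num at h1
    · exact not_dvd_of_lt (by linarith) (by nlinarith) h1


section mat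

variable (φ : E →ₐ[F] Matrix ι ι F) (σ : F ≃+* F) (K : GL ι F)

/-- conjugation and a field automorphism -/
noncomputable def th1 : E →+* Matrix ι ι F where
  toFun a := (K : Matrix ι ι F) * (φ a).map σ * ((K⁻¹ : GL ι F) : Matrix ι ι F)
  map_one' := by
    rw [map_one, Matrix.map_one _ (map_zero σ) (map_one σ), mul_one]
    exact K.mul_inv
  map_mul' a b := by
    have h1 : (φ (a * b)).map σ = (φ a).map σ * (φ b).map σ := by
      rw [map_mul]
      exact Matrix.map_mul (f := (σ : F →+* F))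
    have h2 : ((K⁻¹ : GL ι F) : Matrix ι ι F) * (K : Matrix ι ι F) = 1 := K.inv_mul
    rw [h1]
    calc (K : Matrix ι ι F) * ((φ a).map σ * (φ b).map σ) * ((K⁻¹ : GL ι F) : Matrix ι ι F) =
        (K : Matrix ι ι F) * (φ a).map σ * 1 * ((φ b).map σ * ((K⁻¹ : GL ι F) : Matrix ι ι F)) := by
          rw [mul_one]
          simp only [mul_assoc]
      _ = _ := by
          rw [← h2]
          simp only [mul_assoc]
  map_zero' := by
    rw [map_zero, Matrix.map_zero _ (map_zero σ), mul_zero, zero_mul]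
  map_add' a b := by
    rw [map_add, Matrix.map_add _ (map_add σ), mul_add, add_mul]

/-- the same with the transpose -/
noncomputable def th2 : E →+* Matrix ι ι F where
  toFun a := (K : Matrix ι ι F) * (φ a)ᵀ.map σ * ((K⁻¹ : GL ι F) : Matrix ι ι F)
  map_one' := by
    rw [map_one, Matrix.transpose_one, Matrix.map_one _ (map_zero σ) (map_one σ), mul_one]
    exact K.mul_inv
  map_mul' a b := by
    have h1 : (φ (a * b))ᵀ.map σ = (φ a)ᵀ.map σ * (φ b)ᵀ.map σ := by
      rw [mul_comm a b, map_mul, Matrix.transpose_mul]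
      exact Matrix.map_mul (f := (σ : F →+* F))
    have h2 : ((K⁻¹ : GL ι F) : Matrix ι ι F) * (K : Matrix ι ι F) = 1 := K.inv_mul
    rw [h1]
    calc (K : Matrix ι ι F) * ((φ a)ᵀ.map σ * (φ b)ᵀ.map σ) * ((K⁻¹ : GL ι F) : Matrix ι ι F) =
        (K : Matrix ι ι F) * (φ a)ᵀ.map σ * 1 * ((φ b)ᵀ.map σ * ((K⁻¹ : GL ι F) : Matrix ι ι F)) := by
          rw [mul_one]
          simp only [mul_assoc]
      _ = _ := by
          rw [← h2]
          simp only [mul_assoc]
  map_zero' := by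
    rw [map_zero, Matrix.transpose_zero, Matrix.map_zero _ (map_zero σ), mul_zero, zero_mul]
  map_add' a b := by
    rw [map_add, Matrix.transpose_add, Matrix.map_add _ (map_add σ), mul_add, add_mul]

theorem phi_algebraMap (c : F) : φ (algebraMap F E c) = Matrix.diagonal fun _ => c := by
  rw [AlgHom.commutes]
  ext i j
  rw [Matrix.algebraMap_matrix_apply, Matrix.diagonal_apply]
  rfl

theorem th1_alg (c : F) : th1 φ σ K (algebraMap F E c) = φ (algebraMap F E (σ c)) := by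
  change (K : Matrix ι ι F) * (φ (algebraMap F E c)).map σ * ((K⁻¹ : GL ι F) : Matrix ι ι F) = _
  rw [phi_algebraMap, phi_algebraMap, Matrix.diagonal_map (map_zero σ)]
  have h : (Matrix.diagonal fun _ : ι => σ c) = (σ c) • (1 : Matrix ι ι F) := by
    rw [Matrix.smul_one_eq_diagonal]
  change (K : Matrix ι ι F) * (Matrix.diagonal fun _ : ι => σ c) * ((K⁻¹ : GL ι F) : Matrix ι ι F) = _
  rw [h, Matrix.mul_smul, Matrix.smul_mul, mul_one]
  congr 1
  exact K.mul_inv

theorem th2_alg (c : F) : th2 φ σ K (algebraMap F E c) = φ (algebraMap F E (σ c)) := by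
  change (K : Matrix ι ι F) * (φ (algebraMap F E c))ᵀ.map σ * ((K⁻¹ : GL ι F) : Matrix ι ι F) = _
  rw [phi_algebraMap, phi_algebraMap, Matrix.diagonal_transpose, Matrix.diagonal_map (map_zero σ)]
  have h : (Matrix.diagonal fun _ : ι => σ c) = (σ c) • (1 : Matrix ι ι F) := by
    rw [Matrix.smul_one_eq_diagonal]
  change (K : Matrix ι ι F) * (Matrix.diagonal fun _ : ι => σ c) * ((K⁻¹ : GL ι F) : Matrix ι ι F) = _
  rw [h, Matrix.mul_smul, Matrix.smul_mul, mul_one]
  congr 1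
  exact K.mul_inv

end mat


section cases

variable [Finite F] [FiniteDimensional F E] {p f : ℕ} [hp : Fact p.Prime] [CharP F p] (hF : Nat.card F = p ^ f)
  (hq : 3 ≤ p ^ f) (hfr : finrank F E = 3) (φ : E →ₐ[F] Matrix ι ι F) (σ : F ≃+* F) (K : GL ι F) {ω : E}
  (hω : ∀ c : F, ω ≠ algebraMap F E c) (hord : (p ^ f) ^ 2 + p ^ f + 1 ∣ orderOf ω) {z : F} (hz : z ^ 3 = 1)

include hF hfr in
theorem frob' (τ : E →+* E) : ∃ j < 3 * f, ∀ x, τ x = x ^ p ^ j := by
  have : CharP E p := charP_of_injective_algebraMap (algebraMap F E).injective p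
  have : Finite E := Module.finite_of_finite F
  refine frob (m := 3 * f) ?_ τ
  rw [Module.natCard_eq_pow_finrank (K := F), hF, hfr, ← pow_mul, mul_comm]

include hF hq hfr hω hord hz in
theorem plus_case [Nonempty ι] (h : φ ω * (K : Matrix ι ι F) = z • ((K : Matrix ι ι F) * (φ ω).map σ)) :
    σ = RingEquiv.refl F ∨ (p ^ f = 4 ∧ ∀ c, σ c = c ^ 2) := by
  have hz0 : z ≠ 0 := by
    rintro rfl
    norm_num at hz
  have hω0 : ω ≠ 0 := fun h0 => hω 0 (by rw [h0, map_zero])
  obtain ⟨τ, -, h1, h2⟩ := exists_tau φ σ (th1 φ σ K) (th1_alg φ σ K) (ω₀ := ω) (ω₁ := z⁻¹ • ω)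
    (adjoin_top (by rw [hfr]; exact Nat.prime_three) hω) (by
      change (K : Matrix ι ι F) * (φ ω).map σ * ((K⁻¹ : GL ι F) : Matrix ι ι F) = _
      have h3 : (K : Matrix ι ι F) * (φ ω).map σ = z⁻¹ • (φ ω * (K : Matrix ι ι F)) := by
        rw [h, smul_smul, inv_mul_cancel₀ hz0, one_smul]
      rw [h3, Matrix.smul_mul, mul_assoc, map_smul]
      have h4 : (K : Matrix ι ι F) * ((K⁻¹ : GL ι F) : Matrix ι ι F) = 1 := K.mul_inv
      rw [h4, mul_one])
  obtain ⟨j, hj, hτ⟩ := frob' hF hfr τ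
  rw [hτ] at h1
  have h3 : ω ^ (3 * (p ^ j - 1)) = 1 := by
    have h5 : (ω ^ p ^ j) ^ 3 = ω ^ 3 := by
      rw [h1, smul_pow, inv_pow, hz, inv_one, one_smul]
    have h6 : ω ^ (3 * (p ^ j - 1)) * ω ^ 3 = ω ^ 3 := by
      rw [← pow_add]
      have h7 : 3 * (p ^ j - 1) + 3 = p ^ j * 3 := by
        have := Nat.one_le_pow j p hp.out.pos
        omega
      rw [h7, pow_mul, h5]
    exact mul_right_cancel₀ (pow_ne_zero 3 hω0) (by rw [h6, one_mul])
  have h4 : (((p ^ f : ℕ) : ℤ) ^ 2 + (p ^ f : ℕ) + 1) ∣ 3 * ((p : ℤ) ^ j - 1) := by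
    have h5 := hord.trans (orderOf_dvd_of_pow_eq_one h3)
    have h6 : ((3 * (p ^ j - 1) : ℕ) : ℤ) = 3 * ((p : ℤ) ^ j - 1) := by
      rw [Nat.cast_mul, Nat.cast_sub (Nat.one_le_pow j p hp.out.pos)]
      push_cast
      ring
    rw [← h6]
    exact_mod_cast h5
  rcases arith_plus hp.out.two_le hq hj h4 with rfl | ⟨h5, rfl⟩
  · left
    ext c
    have h6 := h2 c
    rw [hτ, pow_zero, pow_one] at h6
    exact ((algebraMap F E).injective h6).symm
  · right
    refine ⟨h5, fun c => ?_⟩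
    have h6 := h2 c
    rw [hτ, ← map_pow] at h6
    have h7 := ((algebraMap F E).injective h6).symm
    rw [h7]
    have h8 : p = 2 := by
      have h9 : p ∣ 2 ^ 2 := by
        rw [show (2 : ℕ) ^ 2 = 4 from rfl, ← h5]
        refine dvd_pow_self p ?_
        rintro rfl
        norm_num at h5
      exact (Nat.prime_dvd_prime_iff_eq hp.out Nat.prime_two).1 (hp.out.dvd_of_dvd_pow h9)
    subst h8
    have h9 : c ^ 4 = c := by
      have := Fintype.ofFinite F
      have h10 := FiniteField.pow_card c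
      rwa [← Nat.card_eq_fintype_card, hF, h5] at h10
    calc c ^ 2 ^ 3 = (c ^ 4) ^ 2 := by rw [← pow_mul]; norm_num
      _ = c ^ 2 := by rw [h9]

include hF hq hfr hω hord hz in
theorem minus_case [Nonempty ι] (h : φ ω * (K : Matrix ι ι F) = z • ((K : Matrix ι ι F) * (φ ω⁻¹)ᵀ.map σ)) :
    False := by
  have hz0 : z ≠ 0 := by
    rintro rfl
    norm_num at hz
  have hω0 : ω ≠ 0 := fun h0 => hω 0 (by rw [h0, map_zero])
  have hω' : ∀ c : F, ω⁻¹ ≠ algebraMap F E c := by
    intro c hc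
    apply hω c⁻¹
    rw [map_inv₀, ← hc, inv_inv]
  obtain ⟨τ, -, h1, h2⟩ := exists_tau φ σ (th2 φ σ K) (th2_alg φ σ K) (ω₀ := ω⁻¹) (ω₁ := z⁻¹ • ω)
    (adjoin_top (by rw [hfr]; exact Nat.prime_three) hω') (by
      change (K : Matrix ι ι F) * (φ ω⁻¹)ᵀ.map σ * ((K⁻¹ : GL ι F) : Matrix ι ι F) = _
      have h3 : (K : Matrix ι ι F) * (φ ω⁻¹)ᵀ.map σ = z⁻¹ • (φ ω * (K : Matrix ι ι F)) := by
        rw [h, smul_smul, inv_mul_cancel₀ hz0, one_smul]
      rw [h3, Matrix.smul_mul, mul_assoc, map_smul]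
      have h4 : (K : Matrix ι ι F) * ((K⁻¹ : GL ι F) : Matrix ι ι F) = 1 := K.mul_inv
      rw [h4, mul_one])
  obtain ⟨j, hj, hτ⟩ := frob' hF hfr τ
  rw [hτ] at h1
  have h3 : ω ^ (3 * (p ^ j + 1)) = 1 := by
    have h5 : (ω⁻¹ ^ p ^ j) ^ 3 = ω ^ 3 := by
      rw [h1, smul_pow, inv_pow, hz, inv_one, one_smul]
    have h6 : ω ^ (3 * (p ^ j + 1)) = (ω⁻¹ ^ p ^ j) ^ 3 * (ω ^ p ^ j) ^ 3 := by
      rw [h5, ← pow_mul, ← pow_add]
      congr 1
      ring
    rw [h6, ← mul_pow, inv_pow, inv_mul_cancel₀ (pow_ne_zero _ hω0), one_pow]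
  apply arith_minus hp.out.two_le hq hj
  have h5 := hord.trans (orderOf_dvd_of_pow_eq_one h3)
  have h6 : ((3 * (p ^ j + 1) : ℕ) : ℤ) = 3 * ((p : ℤ) ^ j + 1) := by
    push_cast
    ring
  rw [← h6]
  exact_mod_cast h5

end cases

end Cfsg.Agent.H953.InvT
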