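import Cfsg.Agent.H775.Elim7
import Cfsg.Agent.H49.CoThreeThree
import Cfsg.Agent.SporRec.SuzPerm
import Cfsg.Agent.TypeM.FactsLy

/-!
# Elements of order 9 in `Suz`, `Co₃`, `Ly` (helper953, task 1312, S5231)
-/

set_option autoImplicit false
set_option maxRecDepth 20000

namespace Cfsg.Agent.H953.SevenSpor

open Cfsg Cfsg.Agent.H775.Elim7

universe u

/-! ### `Suz` -/

section Suz

open Cfsg.Spor Cfsg.Agent.SporRec.SuzPerm

/-- the word -/
def w : List Suz.Gen := [.e, .a, .b, .c, .d, .a, .g, .b, .g, .f]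

/-- the third power -/
def w3 : List Suz.Gen := w ++ (w ++ w)

/-- the ninth power -/
def w9 : List Suz.Gen := w3 ++ (w3 ++ w3)

theorem w3_ne : Nat.beq (tr w3 282) 282 = false := by decide +kernel

theorem w9_eq : Nat.beq (tr w9 282) 282 = true := by decide +kernel

/-- the generators -/
def x (i : Suz.Gen) : Suz := PresentedGroup.mk (coxRelators Suz.edges ∪ {r | r ∈ Suz.extra}) (FreeGroup.of i)

/-- the element -/
def y : Suz := (w.map x).prod

theorem φ_y : φ y = (w.map gen).prod := by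
  rw [y, map_list_prod, List.map_map]
  congr 1

theorem nine_dvd : 9 ∣ orderOf y := by
  have h3 : ¬ (φ y ^ 3) ⟨282, by norm_num⟩ = ⟨282, by norm_num⟩ := by
    have e : φ y ^ 3 = (w3.map gen).prod := by
      rw [w3, List.map_append, List.map_append, List.prod_append, List.prod_append, ← φ_y, ← mul_assoc, ← pow_two,
        ← pow_succ]
    rw [e]
    intro h
    have h1 := congrArg Fin.val h
    rw [prod_val] at h1
    have h2 := w3_ne
    rw [h1] at h2
    exact absurd h2 (by decide)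
  have h9 : (φ y ^ 9) ⟨282, by norm_num⟩ = ⟨282, by norm_num⟩ := by
    have e : φ y ^ 9 = (w9.map gen).prod := by
      rw [w9, List.map_append, List.map_append, List.prod_append, List.prod_append, w3, List.map_append,
        List.map_append, List.prod_append, List.prod_append, ← φ_y]
      simp only [pow_succ, pow_zero, one_mul, mul_assoc]
    rw [e]
    apply Fin.ext
    rw [prod_val]
    exact Nat.eq_of_beq_eq_true w9_eq
  have : Fact (Nat.Prime 3) := ⟨Nat.prime_three⟩
  have h1 : Function.minimalPeriod (⇑(φ y)) (⟨282, by norm_num⟩ : Fin 1782) = 3 ^ (1 + 1) := by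
    apply Function.minimalPeriod_eq_prime_pow
    · intro h
      apply h3
      rw [Function.IsPeriodicPt, Function.IsFixedPt, ← Equiv.Perm.coe_pow] at h
      exact h
    · rw [Function.IsPeriodicPt, Function.IsFixedPt, ← Equiv.Perm.coe_pow]
      exact h9
  have h2 : (9 : ℕ) = Function.minimalPeriod (⇑(φ y)) (⟨282, by norm_num⟩ : Fin 1782) := by rw [h1]; norm_num
  rw [h2]
  apply Function.IsPeriodicPt.minimalPeriod_dvd
  rw [Function.IsPeriodicPt, Function.IsFixedPt, ← Equiv.Perm.coe_pow, ← map_pow, pow_orderOf_eq_one, map_one]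
  rfl

theorem big7_suz {K : Type u} [Group K] [Finite K] (h : Spor.IsoSuz K) : Big7 K := by
  obtain ⟨e⟩ := h
  refine Big7.of_dvd (x := e.symm y) (orderOf_pos _).ne' ?_
  rw [MulEquiv.orderOf_eq]
  exact nine_dvd

end Suz

/-! ### `Co₃` -/

section Co3

open Cfsg.Agent.H49.MatCo3 Cfsg.Agent.H49.CoThreeThree Cfsg.Agent.H49.Stab
open Cfsg.Agent.LThreeCo1.Ev

theorem c9 : eqB (xM M) [1, 4, 1, 4, 1, 4, 1, 4, 1, 4, 1, 4, 1, 4, 1, 4, 1, 4] [] = true := by decide +kernel

theorem c3 : neB' (xM M) [1, 4, 1, 4, 1, 4] [] = true := by decide +kernel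

theorem nine_co3' : ∃ x : St Spor.leechV, orderOf x = 9 := by
  obtain ⟨a, ha⟩ : ∃ a : St Spor.leechV, a = xs okM fix 1 := ⟨_, rfl⟩
  obtain ⟨b, hb⟩ : ∃ b : St Spor.leechV, b = xs okM fix 4 := ⟨_, rfl⟩
  have h9 : (a * b) ^ 9 = 1 := by
    have h := word_eq okM fix c9
    simp only [List.map_cons, List.map_nil, List.prod_cons, List.prod_nil, ← ha, ← hb, mul_one] at h
    rw [← h]
    simp only [pow_succ, pow_zero, one_mul, mul_assoc]
  have h3 : (a * b) ^ 3 ≠ 1 := by
    have h := word_ne okM fix c3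
    simp only [List.map_cons, List.map_nil, List.prod_cons, List.prod_nil, ← ha, ← hb, mul_one] at h
    intro h1
    apply h
    rw [← h1]
    simp only [pow_succ, pow_zero, one_mul, mul_assoc]
  have : Fact (Nat.Prime 3) := ⟨Nat.prime_three⟩
  exact ⟨a * b, orderOf_eq_prime_pow (p := 3) (n := 1) (by simpa using h3) (by simpa using h9)⟩

theorem nine_co3 : ∃ x : Spor.Co3, orderOf x = 9 := nine_co3'

theorem big7_co3 {K : Type u} [Group K] (h : Spor.IsoCo3 K) : Big7 K := by
  obtain ⟨e⟩ := h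
  obtain ⟨x, hx⟩ := nine_co3
  exact Or.inr ⟨e.symm x, by rw [MulEquiv.orderOf_eq, hx]⟩

end Co3

/-! ### `Ly` -/

section Ly

open Equiv

/-- the 9-cycle -/
def t9 : Perm (Fin 11) := swap 0 1 * swap 1 2 * swap 2 3 * swap 3 4 * swap 4 5 * swap 5 6 * swap 6 7 * swap 7 8

theorem t9_order : orderOf t9 = 9 := by
  have : Fact (Nat.Prime 3) := ⟨Nat.prime_three⟩
  exact orderOf_eq_prime_pow (p := 3) (n := 1) (by decide +kernel) (by decide +kernel)

theorem t9_sign : Perm.sign t9 = 1 := by decide +kernel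

theorem big7_ly {K : Type u} [Group K] [Finite K] (h : Spor.IsoLy K) : Big7 K := by
  obtain ⟨-, -, -, ⟨L⟩⟩ := Cfsg.Agent.TypeM.FactsLy.facts h
  obtain ⟨y, hy⟩ := L.K.exists_lift (Perm.mem_alternatingGroup.2 t9_sign)
  refine Big7.of_dvd (x := (y : K)) (orderOf_pos _).ne' ?_
  rw [Subgroup.orderOf_coe, ← t9_order, ← hy]
  exact orderOf_map_dvd _ _

end Ly

end Cfsg.Agent.H953.SevenSpor
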